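import Mathlib
import Cfsg.Agent.Lib.P3L.A1
import Cfsg.Agent.Lib.LocStruct.Conj
import Cfsg.Agent.Lib.LargeExtra.Basic

/-! The 3-local configuration `3⁴ : W(D₄).3`, `3⁴ : W(F₄)`: definitions. -/

set_option autoImplicit false

namespace H12.O83

open Subgroup H20.L43 H69

/-- the dot product -/
def dt (u v : V4) : ZMod 3 := u.1 * v.1 + u.2.1 * v.2.1 + u.2.2.1 * v.2.2.1 + u.2.2.2 * v.2.2.2
/-- the product of the coordinates -/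
def ka (x : V4) : ZMod 3 := x.1 * x.2.1 * x.2.2.1 * x.2.2.2
/-- the transpose -/
def tr (p : M4) : M4 := ⟨p.a11, p.a21, p.a31, p.a41, p.a12, p.a22, p.a32, p.a42,
  p.a13, p.a23, p.a33, p.a43, p.a14, p.a24, p.a34, p.a44⟩
/-- orthogonal matrices -/
def Orth (M : M4) : Prop := tr M * M = 1

def e1 : V4 := (1, 0, 0, 0)
def e2 : V4 := (0, 1, 0, 0)
def e3 : V4 := (0, 0, 1, 0)
def e4 : V4 := (0, 0, 0, 1)
def vz : V4 := (1, 1, 1, 0)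
def z2 : V4 := (1, 1, -1, 0)
def vr : V4 := (1, -1, 0, 0)
def v1 : V4 := (1, 1, 0, 0)
def v2 : V4 := (0, 0, 1, 1)
def v3 : V4 := (0, 0, 1, -1)

/-- the triality class, additive where `sg = 1` -/
def rt (M : M4) : ZMod 3 := ka (mv M e1)
/-- the sign on short reflections -/
def sg (M : M4) : ZMod 3 := ka (mv M (1, 1, 1, 1)) - ka (mv M e1)
/-- `W(F₄)` for `l = true`, `W(D₄).3` for `l = false` -/
def W (l : Bool) (M : M4) : Prop := Orth M ∧ (l = true ∨ sg M = 1)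
/-- `W(D₄)` -/
def W0 (M : M4) : Prop := Orth M ∧ sg M = 1 ∧ rt M = 0

instance (M : M4) : Decidable (Orth M) := by unfold Orth; infer_instance
instance (l : Bool) (M : M4) : Decidable (W l M) := by unfold W; infer_instance
instance (M : M4) : Decidable (W0 M) := by unfold W0; infer_instance

/-- the reflection in `vr` -/
def mT : M4 := ⟨0, 1, 0, 0, 1, 0, 0, 0, 0, 0, 1, 0, 0, 0, 0, 1⟩
/-- the reflection in `v1` -/
def p1 : M4 := ⟨0, -1, 0, 0, -1, 0, 0, 0, 0, 0, 1, 0, 0, 0, 0, 1⟩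
/-- the reflection in `v2` -/
def p2 : M4 := ⟨1, 0, 0, 0, 0, 1, 0, 0, 0, 0, 0, -1, 0, 0, -1, 0⟩
/-- the reflection in `v3` -/
def p3 : M4 := ⟨1, 0, 0, 0, 0, 1, 0, 0, 0, 0, 0, 1, 0, 0, 1, 0⟩
/-- the reflection exchanging the two middle coordinates -/
def s23 : M4 := ⟨1, 0, 0, 0, 0, 0, 1, 0, 0, 1, 0, 0, 0, 0, 0, 1⟩
/-- the three-cycle -/
def mB : M4 := ⟨0, 1, 0, 0, 0, 0, 1, 0, 1, 0, 0, 0, 0, 0, 0, 1⟩
/-- the triality element -/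
def mO : M4 := ⟨-1, 1, 1, 1, 1, -1, 1, 1, 1, 1, -1, 1, -1, -1, -1, 1⟩
def u1 : M4 := dg (-1) 1 1 1
def u2 : M4 := dg 1 (-1) 1 1
def u3 : M4 := dg 1 1 (-1) 1
def u4 : M4 := dg 1 1 1 (-1)

abbrev D3 := ZMod 2 × ZMod 2 × ZMod 2
abbrev X3 := ZMod 3 × ZMod 3 × ZMod 3

/-- the group generated by the three reflections -/
def dm (d : D3) : M4 := p1 ^ d.1.val * p2 ^ d.2.1.val * p3 ^ d.2.2.val
def oo : D3 := (1, 1, 1)
/-- the action of a vector fixed by `mT` on coordinates -/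
def a3 (x : V4) (v : D3 → ZMod 2) (d : D3) : ZMod 2 :=
  if dt (mv (dm d) x) vz = 0 then v d else if dt (mv (dm d) x) vz = -1 then v (d + oo)
  else v d + v (d + oo)
/-- one block of the squaring form -/
def qb (v : D3 → ZMod 2) (d : D3) : ZMod 2 := v d + v (d + oo) + v d * v (d + oo)
/-- the squaring form -/
def Qe (v : D3 → ZMod 2) : ZMod 2 :=
  qb v (0, 0, 0) + qb v (0, 0, 1) + qb v (0, 1, 0) + qb v (0, 1, 1)
/-- sign changes -/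
def sn (d : D3) (u : X3) : X3 :=
  ((-1) ^ d.1.val * u.1, (-1) ^ d.2.1.val * u.2.1, (-1) ^ d.2.2.val * u.2.2)

/-- pairs whose common centralizer normalizes `J` -/
def Good (p x : V4) : Prop :=
  dt p p = 0 ∧ p ≠ 0 ∧ x ≠ 0 ∧ x ≠ p ∧ x ≠ -p ∧ ¬(dt x p = 0 ∧ dt x x = 1)

instance (p x : V4) : Decidable (Good p x) := by unfold Good; infer_instance

/-- the linear data of a section `C(Θ, y₀, y₁) / ⟨Θ, y₀, y₁⟩` with Sylow 3-subgroup `⟨w, y⟩` -/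
structure Sec (l : Bool) (Θ : M4) (y0 y1 w y : V4) : Prop where
  hW : W l Θ
  sq : Θ * Θ = 1
  f0 : mv Θ y0 = y0
  f1 : mv Θ y1 = y1
  fw : mv Θ w = w
  fy : mv Θ y = y
  dec : ∀ x, mv Θ x = x → ∃ a b c d : ZMod 3, x = a • w + b • y + (c • y0 + d • y1)
  inj : ∀ a b c d : ZMod 3, a • w + b • y = c • y0 + d • y1 → a = 0 ∧ b = 0
  nd : ∀ c d : ZMod 3, dt (c • y0 + d • y1) y0 = 0 → dt (c • y0 + d • y1) y1 = 0 →
    c • y0 + d • y1 = 0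
  big : ∃ p x, mv Θ p = p ∧ mv Θ x = x ∧ Good p x
  two : ∀ M, W l M → M * Θ = Θ * M → mv M y0 = y0 → mv M y1 = y1 → M ^ 4 = 1 ∧
    (mv M w = w → mv M y = y → M = 1 ∨ M = Θ)

variable {G : Type*} [Group G]

/-- the subgroup `J` -/
def Jg (f : V4 → G) : Subgroup G := closure (Set.range f)
/-- its normalizer -/
def NJ (f : V4 → G) : Subgroup G := 𝐍(Jg f)
def jj (f : V4 → G) (i : G) : G := f v1 * i * (f v1)⁻¹
/-- the quaternion group -/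
def Bq (f : V4 → G) (i : G) : Subgroup G := closure {i, jj f i}
/-- the product of the four quaternion groups -/
def Eg (f : V4 → G) (s : M4 → G) (i : G) : Subgroup G :=
  Bq f i ⊔ Bq f i ^ᶜ s p1 ⊔ Bq f i ^ᶜ s p2 ⊔ Bq f i ^ᶜ s p3
/-- the sections -/
def Lc (f : V4 → G) (a : G) (y0 y1 : V4) : Subgroup G := centralizer {a, f y0, f y1}
def Uc (f : V4 → G) (a : G) (y0 y1 : V4) : Subgroup G := closure {a, f y0, f y1}
def Ac (f : V4 → G) (Θ : M4) : Subgroup G := closure (f '' {x | mv Θ x = x})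

/-- `J` with a Sylow 3-subgroup above it -/
structure Pre (f : V4 → G) (a b : G) : Prop where
  add : ∀ x y, f (x + y) = f x * f y
  inj : ∀ x, f x = 1 → x = 0
  a3 : a ^ 3 = 1
  b3 : b ^ 3 = 1
  aO : ∀ x, a * f x * a⁻¹ = f (mv mO x)
  bB : ∀ x, b * f x * b⁻¹ = f (mv mB x)
  syl : ∀ P : Subgroup G, IsPGroup 3 P → ∃ k, ∀ g ∈ P, ∃ x, ∃ m n : ℕ,
    k * g * k⁻¹ = f x * (a ^ m * b ^ n)

/-- the configuration -/
structure St (l : Bool) (f : V4 → G) (s : M4 → G) (i : G) : Prop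
    extends Pre f (s mO) (s mB) where
  mul : ∀ M N, W l M → W l N → s (M * N) = s M * s N
  act : ∀ M, W l M → ∀ x, s M * f x * (s M)⁻¹ = f (mv M x)
  dec : ∀ g ∈ NJ f, ∃ x M, W l M ∧ g = f x * s M
  i2 : i * i = s mT
  iz : i * f vz = f vz * i
  ie : i * f e4 = f e4 * i
  iw : i * s mO = s mO * i
  ir : i * f vr * i⁻¹ = s mB
  ij : i * jj f i * i⁻¹ = (jj f i)⁻¹
  yj : f v1 * jj f i * (f v1)⁻¹ = i * jj f i
  nz : ∀ g, g * f vz * g⁻¹ ∈ zpowers (f vz) → ∃ b ∈ Bq f i, g * b ∈ NJ f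

/-- the centralizer of two orthogonal short vectors normalizes `J` -/
def XN (f : V4 → G) : Prop := ∀ g, g * f e3 = f e3 * g → g * f e4 = f e4 * g → g ∈ NJ f

/-- a core for the involution `a` in `C(e₃, e₄)`; `y` acts without fixed points on `F / ⟨a⟩` -/
structure Fc (f : V4 → G) (a y : G) (F : Subgroup G) : Prop where
  aF : a ∈ F
  sq : ∀ φ ∈ F, φ * φ = 1
  c3 : ∀ φ ∈ F, φ * f e3 = f e3 * φ
  c4 : ∀ φ ∈ F, φ * f e4 = f e4 * φ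
  nF : ∀ g, g * a = a * g → g * f e3 = f e3 * g → g * f e4 = f e4 * g →
    (∀ φ ∈ F, g * φ * g⁻¹ ∈ F) ∧ ∃ φ ∈ F, φ * g ∈ NJ f
  fp : ∀ φ ∈ F, y * φ * y⁻¹ * φ⁻¹ ∈ zpowers a → φ ∈ zpowers a
  card : Nat.card F ≤ 8

/-- the normal `3'`-section `Y / U` of `L / U` -/
structure YD (f : V4 → G) (Θ : M4) (L U Y : Subgroup G) (w y : V4) : Prop where
  le : Y ≤ L
  UY : U ≤ Y
  nm : ∀ g ∈ L, ∀ k ∈ Y, g * k * g⁻¹ ∈ Y
  dec : ∀ g ∈ L, ∃ k ∈ Y, k * g ∈ NJ f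
  inN : ∀ k ∈ Y, k ∈ NJ f → k ∈ U
  gen : ∀ B : Subgroup G, U ≤ B → (∀ a b : ZMod 3, ¬(a = 0 ∧ b = 0) → ∀ k ∈ Y,
    k * f (a • w + b • y) = f (a • w + b • y) * k → k ∈ B) → Y ≤ B
  core : ∀ b ∈ L, ∀ x, mv Θ x = x → (b * f x * b⁻¹ * (f x)⁻¹) ^ 4 ∈ U →
    b * f x * b⁻¹ * (f x)⁻¹ ∈ Y
  cen : Y ≤ U ∨ ∃ k ∈ Y, k ∉ U ∧ (∀ k' ∈ Y, k * k' * k⁻¹ * k'⁻¹ ∈ U) ∧
    ∃ a b : ZMod 3, ¬(a = 0 ∧ b = 0) ∧ k * f (a • w + b • y) = f (a • w + b • y) * k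

/-- `E / ⟨t⟩` is the regular module of the group `δ` -/
structure EC (t : G) (E : Subgroup G) (φ : G → D3 → ZMod 2) (δ : D3 → G) : Prop where
  t1 : t ≠ 1
  t2 : t * t = 1
  tE : t ∈ E
  tc : ∀ a ∈ E, a * t = t * a
  add : ∀ a ∈ E, ∀ b ∈ E, φ (a * b) = φ a + φ b
  ker : ∀ a ∈ E, φ a = 0 ↔ a = 1 ∨ a = t
  surj : ∀ v, ∃ a ∈ E, φ a = v
  δt : ∀ d, δ d * t = t * δ d
  δm : ∀ c d, δ (c + d) = δ c * δ d
  δE : ∀ d, ∀ a ∈ E, δ d * a * (δ d)⁻¹ ∈ E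
  δφ : ∀ d, ∀ a ∈ E, φ (δ d * a * (δ d)⁻¹) = fun x => φ a (x + d)

/-- the extraspecial group in the configuration -/
structure EE (l : Bool) (f : V4 → G) (s : M4 → G) (i : G) (φ : G → D3 → ZMod 2) : Prop
    extends EC (s mT) (Eg f s i) φ (fun d => s (dm d)) where
  es : H95.ES (Eg f s i) (s mT)
  sq : ∀ a ∈ Eg f s i, a * a = 1 ↔ Qe (φ a) = 0
  nE : ∀ g ∈ NJ f, g * s mT = s mT * g → ∀ a ∈ Eg f s i, g * a * g⁻¹ ∈ Eg f s i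
  cK : ∀ x, x ≠ 0 → mv mT x = x → ∀ g, g * s mT = s mT * g → g * f x = f x * g →
    ∃ a ∈ Eg f s i, a * g ∈ NJ f
  EN : ∀ a ∈ Eg f s i, a ∈ NJ f → a = 1 ∨ a = s mT
  aJ : ∀ x, mv mT x = x → ∀ a ∈ Eg f s i, φ (f x * a * (f x)⁻¹) = a3 x (φ a)
  aw : ∀ a ∈ Eg f s i, φ (s mO * a * (s mO)⁻¹) = fun d => φ a (d.2.2, d.1, d.2.1)
  au : l = true → ∀ a ∈ Eg f s i, φ (s u4 * a * (s u4)⁻¹) = fun d => φ a (d.1, d.2.2, d.2.1)
  fi : φ i = fun d => if d = 0 ∨ d = oo then 1 else 0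
  cB : ∀ a ∈ Bq f i, ∀ b ∈ Bq f i ^ᶜ s p1, a * b = b * a

/-- a normal subgroup of index three meeting `N(J)` in `J : W(D₄)` -/
structure G0 (f : V4 → G) (s : M4 → G) (H : Subgroup G) : Prop where
  nm : H.Normal
  ind : H.index = 3
  fH : ∀ x, f x ∈ H
  sH : ∀ M, W false M → (s M ∈ H ↔ rt M = 0)

/-- the Sylow 2-subgroup candidate -/
def In2 (f : V4 → G) (s : M4 → G) (i g : G) : Prop :=
  ∃ a ∈ Eg f s i, ∃ d, ∃ c : ℕ, g = a * s (dm d) * s u4 ^ c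

/-- an elementary abelian group of order 27 with sign changes -/
structure P27 (p : X3 → G) (δ : D3 → G) (N : Subgroup G) : Prop where
  add : ∀ u v, p (u + v) = p u * p v
  inj : ∀ u, p u = 1 → u = 0
  δm : ∀ c d, δ (c + d) = δ c * δ d
  act : ∀ d u, δ d * p u * (δ d)⁻¹ = p (sn d u)
  pN : ∀ u, p u ∈ N
  δN : ∀ d, δ d ∈ N
  cN : ∀ u, u ≠ 0 → ∀ g, g * p u = p u * g → g ∈ N
  nP : ∀ g, (∀ u, ∃ v, g * p u * g⁻¹ = p v) → g ∈ N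

/-- the centralizer of `z` in coordinates -/
structure Hy (z : G) (Q : Subgroup G) (β : G → G → ZMod 3) (a1 a2 b1 b2 t i y c : G)
    (lam ε : ZMod 3) : Prop extends Sb z Q β a1 a2 b1 b2 where
  cQ : ∀ g, (∀ q ∈ Q, g * q = q * g) → g ∈ Q
  nQ : ∀ g, g * z * g⁻¹ ∈ zpowers z → ∀ q ∈ Q, g * q * g⁻¹ ∈ Q
  syl : ¬ 3 ^ 7 ∣ Nat.card G
  tN : ∀ g, g * z * g⁻¹ ∈ zpowers z → g * t * g⁻¹ * t ∈ Q
  tz : t * z = z * t
  ta1 : t * a1 = a1 * t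
  tb1 : t * b1 = b1 * t
  ta2 : t * a2 * t⁻¹ = a2⁻¹
  tb2 : t * b2 * t⁻¹ = b2⁻¹
  t2 : t * t = 1
  tr : ∀ p ∈ Q, p ≠ 1 → t * p * t⁻¹ = p⁻¹ → ∃ k, k * t = t * k ∧
    (∀ q ∈ Q, q * t = t * q → k * q = q * k) ∧ (k * k = t ∨ k = 1 ∨ k = t) ∧ k * a2 * k⁻¹ = p
  iz : i * z = z * i
  mi : mt β a1 a2 b1 b2 i = ⟨1, 0, 0, 0, 0, 0, 0, -1, 0, 0, 1, 0, 0, 1, 0, 0⟩
  yz : y * z = z * y
  yt : y * t = t * y
  y3 : y ^ 3 ∈ Q
  my : mt β a1 a2 b1 b2 y = ⟨1, 0, lam, 0, 0, 1, 0, 1, 0, 0, 1, 0, 0, 0, 0, 1⟩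
  cz : c * z = z * c
  ε2 : ε * ε = 1
  mc : mt β a1 a2 b1 b2 c = dg ε 1 ε 1
  gen : ∀ g, g * z = z * g → ∃ q ∈ Q, ∃ k l m n : ℕ,
    g = q * (i ^ k * (y * i * y⁻¹) ^ l * y ^ m * c ^ n)

/-- the subgroup `J` inside the normalizer of `Z` -/
structure Mid (Q : Subgroup G) (f : V4 → G) (t a b : G) : Prop extends Pre f a b where
  mQ : ∀ g, g ∈ Q ↔ ∃ x, ∃ m n : ℕ, dt x vz = 0 ∧ g = f x * (a ^ m * b ^ n)
  ab : a * b = b * a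
  cQ : ∀ g, (∀ q ∈ Q, g * q = q * g) → g ∈ zpowers (f vz)
  nQ : ∀ g, g * f vz * g⁻¹ ∈ zpowers (f vz) → ∀ q ∈ Q, g * q * g⁻¹ ∈ Q
  tN : ∀ g, g * f vz * g⁻¹ ∈ zpowers (f vz) → g * t * g⁻¹ * t ∈ Q
  t2 : t * t = 1
  tT : ∀ x, t * f x * t⁻¹ = f (mv mT x)
  ta : t * a = a * t
  tb : t * b * t⁻¹ = b⁻¹
  cJ : ∀ g, g * f vz = f vz * g → g * f e4 = f e4 * g → g * f vr = f vr * g → ∃ x, g = f x
  sing : ∀ g x, g * f vz * g⁻¹ = f x → dt x x = 0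
  fus : ∃ g, g * f vz * g⁻¹ = f z2 ∨ g * f vz * g⁻¹ = f (-z2)
  lin : ∀ g, g * f vz * g⁻¹ ∈ zpowers (f vz) → ∃ c k : ZMod 3, g * f e4 * g⁻¹ = f (c • e4 + k • vz)
  tr : ∀ p ∈ Q, p ≠ 1 → t * p * t⁻¹ = p⁻¹ → ∃ k, k * t = t * k ∧
    (∀ q ∈ Q, q * t = t * q → k * q = q * k) ∧ (k * k = t ∨ k = 1 ∨ k = t) ∧ k * f vr * k⁻¹ = p

theorem eqns_defs : True := by
  have := @dt.eq_1
  have := @ka.eq_1
  have := @tr.eq_1
  have := @Orth.eq_1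
  have := @e1.eq_1
  have := @e2.eq_1
  have := @e3.eq_1
  have := @e4.eq_1
  have := @vz.eq_1
  have := @z2.eq_1
  have := @vr.eq_1
  have := @v1.eq_1
  have := @v2.eq_1
  have := @v3.eq_1
  have := @rt.eq_1
  have := @sg.eq_1
  have := @W.eq_1
  have := @W0.eq_1
  have := @mT.eq_1
  have := @p1.eq_1
  have := @p2.eq_1
  have := @p3.eq_1
  have := @s23.eq_1
  have := @mB.eq_1
  have := @mO.eq_1
  have := @u1.eq_1
  have := @u2.eq_1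
  have := @u3.eq_1
  have := @u4.eq_1
  have := @dm.eq_1
  have := @oo.eq_1
  have := @a3.eq_1
  have := @qb.eq_1
  have := @Qe.eq_1
  have := @sn.eq_1
  have := @Good.eq_1
  have := @Jg.eq_1.{0}
  have := @NJ.eq_1.{0}
  have := @jj.eq_1.{0}
  have := @Bq.eq_1.{0}
  have := @Eg.eq_1.{0}
  have := @Lc.eq_1.{0}
  have := @Uc.eq_1.{0}
  have := @Ac.eq_1.{0}
  have := @XN.eq_1.{0}
  have := @In2.eq_1.{0}
  trivial

end H12.O83
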