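import Cfsg.Agent.Lib.O83.Defs

/-! Finite checks on the matrices of `C(z)` on `Q / Z` (package IB1, part M). -/

set_option autoImplicit false

namespace H65.IB

open H20.L43

/-- the matrix of `i` -/
def mI : M4 := ⟨1, 0, 0, 0, 0, 0, 0, -1, 0, 0, 1, 0, 0, 1, 0, 0⟩
/-- the matrix of `y i y⁻¹` -/
def mJ : M4 := ⟨1, 0, 0, 0, 0, 1, 0, 1, 0, 0, 1, 0, 0, 1, 0, -1⟩
/-- the matrix of `y` -/
def mY (lam : ZMod 3) : M4 := ⟨1, 0, lam, 0, 0, 1, 0, 1, 0, 0, 1, 0, 0, 0, 0, 1⟩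
/-- the matrices of `C(z)` -/
def gm (lam ε : ZMod 3) (k l : Fin 4) (m : Fin 3) (n : Fin 2) : M4 :=
  mI ^ k.1 * mJ ^ l.1 * mY lam ^ m.1 * dg ε 1 ε 1 ^ n.1
/-- block matrices -/
def bl (u p q r v : ZMod 3) : M4 := ⟨1, 0, u, 0, 0, p, 0, q, 0, 0, 1, 0, 0, r, 0, v⟩
/-- the matrices with cube one -/
def L3 (lam : ZMod 3) : List M4 := [1, bl lam 1 1 0 1, bl lam 1 0 (-1) 1, bl lam 0 1 (-1) (-1),
  bl lam (-1) 1 (-1) 0, bl (-lam) 1 (-1) 0 1, bl (-lam) 1 0 1 1, bl (-lam) (-1) (-1) 1 0,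
  bl (-lam) 0 (-1) 1 (-1)]

theorem eqns_M : True := by
  have := @mI.eq_1
  have := @mJ.eq_1
  have := @mY.eq_1
  have := @gm.eq_1
  have := @bl.eq_1
  have := @L3.eq_1
  trivial

theorem F0 : ∀ lam : ZMod 3, mY lam ^ 3 = 1 ∧ mY lam * mI * mY lam ^ 2 = mJ := by decide +kernel

theorem F1 : ∀ lam ε : ZMod 3, ε * ε = 1 → ∀ k l m n,
    gm lam ε k l m n ^ 3 * gm lam ε k l m n ^ 3 * gm lam ε k l m n ^ 3 = 1 →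
    gm lam ε k l m n ∈ L3 lam := by decide +kernel

theorem F2 : ∀ lam : ZMod 3, ∀ M ∈ L3 lam, ∀ N ∈ L3 lam, M * N ∈ L3 lam →
    M = 1 ∨ ∃ e : ZMod 3, N * M ^ e.val = 1 := by decide +kernel

set_option synthInstance.maxSize 1024 in
theorem F3 : ∀ lam : ZMod 3, ∀ v : V4, ∀ M ∈ L3 lam, v - mv M v ≠ 0 →
    fm (v - mv M v) v = 0 → lam = -1 ∧ (v - mv M v).1 ≠ 0 ∧ (v - mv M v).2.2.1 = 0 ∧
    ((v - mv M v).2.1 ≠ 0 ∨ (v - mv M v).2.2.2 ≠ 0) ∧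
    ((v - mv M v).2.2.2 = 0 → v.2.2.1 ≠ 0 ∧ v.2.2.2 ≠ 0) := by decide +kernel

theorem F4 : ∀ w : V4, ∃ k l : Fin 2, (mv (mI ^ k.1 * mJ ^ l.1) w).2.2.2 = 0 := by decide +kernel

theorem F5 : ∀ lam ε : ZMod 3, ε * ε = 1 → ∀ k l m n,
    mv (gm lam ε k l m n) (1, 0, 0, 0) = (1, 0, 0, 0) →
    mv (gm lam ε k l m n) (0, 1, 0, 0) = (0, 1, 0, 0) →
    ∃ e : ZMod 3, gm lam ε k l m n * mY lam ^ e.val = 1 := by decide +kernel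

theorem F6 : ∀ lam : ZMod 3, ∀ v : V4, mv (dg 1 (-1) 1 (-1)) v = v → ∀ M ∈ L3 lam,
    ∃ e : ZMod 3, v - mv M v = (e, 0, 0, 0) := by decide +kernel

end H65.IB
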