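import Cfsg.Agent.Lib.O83.Defs

/-! The orthogonal group of the standard form in dimension four over the field with three elements. -/

set_option autoImplicit false

namespace H12.O83

open H20.L43 M4

variable {l : Bool} {M N : M4}

theorem mv_zero (M : M4) : mv M 0 = 0 := by simp [mv, Prod.mk_zero_zero]
theorem mv_smul (M : M4) (c : ZMod 3) (x : V4) : mv M (c • x) = c • mv M x := by
  simp only [mv, Prod.ext_iff]; simp; refine ⟨?_, ?_, ?_, ?_⟩ <;> ring
theorem mv_sub (M : M4) (x y : V4) : mv M (x - y) = mv M x - mv M y := by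
  rw [sub_eq_add_neg, mv_add, mv_neg, sub_eq_add_neg]
theorem mv_negm (M : M4) (x : V4) : mv (-M) x = -mv M x := by
  simp only [mv, Prod.ext_iff]; simp; refine ⟨?_, ?_, ?_, ?_⟩ <;> ring
theorem dt_comm (x y : V4) : dt x y = dt y x := by simp only [dt]; ring
theorem dt_add (x y u : V4) : dt (x + y) u = dt x u + dt y u := by simp [dt]; ring
theorem dt_smul (c : ZMod 3) (x u : V4) : dt (c • x) u = c * dt x u := by simp [dt]; ring
theorem dt_neg (x u : V4) : dt (-x) u = -dt x u := by simp [dt]; ring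
theorem tr_tr (M : M4) : tr (tr M) = M := rfl
theorem tr_mul (M N : M4) : tr (M * N) = tr N * tr M := by ext <;> simp [tr] <;> ring
theorem dt_mv (M : M4) (x y : V4) : dt (mv M x) y = dt x (mv (tr M) y) := by
  simp only [dt, mv, tr]; ring
theorem Orth.tr_mv (h : Orth M) (x : V4) : mv (tr M) (mv M x) = x := by rw [← mv_mul, h, mv_one]
theorem Orth.dt (h : Orth M) (x y : V4) : dt (mv M x) (mv M y) = dt x y := by rw [dt_mv, h.tr_mv]
theorem Orth.mul_tr (h : Orth M) : M * tr M = 1 :=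
  toM_inj (by rw [toM_mul, toM_one, mul_eq_one_comm, ← toM_mul, h, toM_one])
theorem Orth.mv_tr (h : Orth M) (x : V4) : mv M (mv (tr M) x) = x := by
  rw [← mv_mul, h.mul_tr, mv_one]
theorem Orth.mul (h : Orth M) (k : Orth N) : Orth (M * N) := by
  rw [Orth, tr_mul, mul_assoc, ← mul_assoc (tr M), h, one_mul, k]
theorem Orth.tr (h : Orth M) : Orth (tr M) := h.mul_tr

/-- the vectors of norm one -/
def N24 : List V4 := [(1,0,0,0), (2,0,0,0), (0,1,0,0), (0,2,0,0), (0,0,1,0), (0,0,2,0), (0,0,0,1),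
  (0,0,0,2), (1,1,1,1), (1,1,1,2), (1,1,2,1), (1,1,2,2), (1,2,1,1), (1,2,1,2), (1,2,2,1), (1,2,2,2),
  (2,1,1,1), (2,1,1,2), (2,1,2,1), (2,1,2,2), (2,2,1,1), (2,2,1,2), (2,2,2,1), (2,2,2,2)]

theorem mem_N24 : ∀ x : V4, dt x x = 1 → x ∈ N24 := by decide +kernel

/-- the three orthonormal frames -/
def FR : List (List (List V4)) := [
  [[(1,0,0,0), (2,0,0,0)], [(0,1,0,0), (0,2,0,0)], [(0,0,1,0), (0,0,2,0)], [(0,0,0,1), (0,0,0,2)]],
  [[(1,1,1,1), (2,2,2,2)], [(1,1,2,2), (2,2,1,1)], [(1,2,1,2), (2,1,2,1)], [(1,2,2,1), (2,1,1,2)]],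
  [[(1,1,1,2), (2,2,2,1)], [(1,1,2,1), (2,2,1,2)], [(1,2,1,1), (2,1,2,2)], [(2,1,1,1), (1,2,2,2)]]]

/-- `p` holds for the 1152 orthogonal matrices -/
def allO (p : M4 → Bool) : Bool := FR.all fun F => F.permutations'.all fun π =>
  (π.getD 0 []).all fun a => (π.getD 1 []).all fun b => (π.getD 2 []).all fun c =>
    (π.getD 3 []).all fun d => p (cols a b c d)

set_option synthInstance.maxSize 1000 in
theorem frames : ∀ a ∈ N24, ∀ b ∈ N24, dt a b = 0 → ∀ c ∈ N24, dt a c = 0 → dt b c = 0 → ∀ d ∈ N24,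
    dt a d = 0 → dt b d = 0 → dt c d = 0 → ∃ F ∈ FR, ∃ π ∈ F.permutations', a ∈ π.getD 0 [] ∧
      b ∈ π.getD 1 [] ∧ c ∈ π.getD 2 [] ∧ d ∈ π.getD 3 [] := by decide +kernel

/-- finite checks over the 1152 orthogonal matrices:
`forall_orth (P := fun M => ..) (by decide +kernel) M hM` -/
theorem forall_orth {P : M4 → Prop} [DecidablePred P] (h : allO (fun M => decide (P M)) = true)
    (M : M4) (hM : Orth M) : P M := by
  simp only [allO, List.all_eq_true, decide_eq_true_eq] at h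
  have e : cols (mv M e1) (mv M e2) (mv M e3) (mv M e4) = M := by
    ext <;> simp [cols, mv, e1, e2, e3, e4]
  obtain ⟨F, hF, π, hπ, a, b, c, d⟩ := frames (mv M e1) (mem_N24 _ (hM.dt _ _)) (mv M e2)
    (mem_N24 _ (hM.dt _ _)) (hM.dt _ _) (mv M e3) (mem_N24 _ (hM.dt _ _)) (hM.dt _ _) (hM.dt _ _)
    (mv M e4) (mem_N24 _ (hM.dt _ _)) (hM.dt _ _) (hM.dt _ _) (hM.dt _ _)
  exact e ▸ h F hF π hπ _ a _ b _ c _ d

theorem ka_mv (h : Orth M) (x : V4) (hx : x ∈ N24) : ka (mv M x) = rt M + sg M * ka x := by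
  have k := forall_orth (P := fun M => ∀ r : ZMod 3, rt M = r → ∀ s : ZMod 3, sg M = s →
    ∀ x ∈ N24.take 16, x.1 ≠ 2 → ka (mv M x) = r + s * ka x) (by decide +kernel) M h _ rfl _ rfl
  have n : ∀ x, ka (-x) = ka x := fun x => by simp [ka]
  rcases (by decide +kernel : ∀ x ∈ N24, x ∈ N24.take 16 ∧ x.1 ≠ 2 ∨
    -x ∈ N24.take 16 ∧ (-x).1 ≠ 2) x hx with e | e
  · exact k x e.1 e.2
  · rw [← n, ← mv_neg, k _ e.1 e.2, n]

theorem rt_mul (h : Orth M) (k : Orth N) : rt (M * N) = rt M + sg M * rt N := by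
  rw [rt, mv_mul, ka_mv h _ (mem_N24 _ (by rw [k.dt]; rfl))]; rfl

theorem sg_mul (h : Orth M) (k : Orth N) : sg (M * N) = sg M * sg N := by
  rw [sg, mv_mul, mv_mul, ka_mv h _ (mem_N24 _ (by rw [k.dt]; rfl)),
    ka_mv h _ (mem_N24 _ (by rw [k.dt]; rfl)), sg.eq_1 N]
  ring

theorem sg_sq (h : Orth M) : sg M * sg M = 1 :=
  forall_orth (P := fun M => sg M * sg M = 1) (by decide +kernel) M h

theorem W.one : W l 1 := by cases l <;> decide
theorem W.mul (h : W l M) (k : W l N) : W l (M * N) := ⟨h.1.mul k.1, h.2.elim .inl fun a =>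
  k.2.imp_right fun b => by rw [sg_mul h.1 k.1, a, b, mul_one]⟩
theorem W.tr (h : W l M) : W l (tr M) := ⟨h.1.tr, h.2.imp_right fun a => by
  have := sg_mul h.1.tr h.1
  rwa [h.1, a, mul_one, eq_comm] at this⟩
theorem W.pow (h : W l M) (n : ℕ) : W l (M ^ n) := by
  induction n with
  | zero => exact W.one
  | succ n ih => exact ih.mul h
theorem W.of (h : W false M) : W l M := ⟨h.1, .inr (h.2.resolve_left (by decide))⟩
theorem W.neg (h : W l M) : W l (-M) := by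
  rw [← neg_one_mul]; exact (W.of (by decide)).mul h
theorem W0.w (h : W0 M) : W l M := ⟨h.1, .inr h.2.1⟩
theorem W_mT : W l mT := W.of (by decide)
theorem W_p1 : W l p1 := W.of (by decide)
theorem W_p2 : W l p2 := W.of (by decide)
theorem W_p3 : W l p3 := W.of (by decide)
theorem W_s23 : W l s23 := W.of (by decide)
theorem W_mB : W l mB := W.of (by decide)
theorem W_mO : W l mO := W.of (by decide)
theorem W_dm (d : D3) : W l (dm d) := ((W_p1.pow _).mul (W_p2.pow _)).mul (W_p3.pow _)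
theorem dm_add (c d : D3) : dm (c + d) = dm c * dm d := by revert c d; decide +kernel
theorem dm_oo : dm oo = -mT := by decide

theorem W0.mul (h : W0 M) (k : W0 N) : W0 (M * N) := ⟨h.1.mul k.1,
  by rw [sg_mul h.1 k.1, h.2.1, k.2.1, mul_one], by rw [rt_mul h.1 k.1, h.2.2, k.2.2]; simp⟩

/-- words in the four reflections -/
def ev (w : List (Fin 4)) : M4 := (w.map ![mT, s23, p3, p2]).prod

/-- representatives for the first column -/
def L8 : List (List (Fin 4)) := [[], [0], [1, 0], [2, 1, 0], [3, 1, 0], [2, 3, 1, 0], [1, 2, 3, 1, 0], [0, 1, 2, 3, 1, 0]]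
/-- the stabilizer of the first column -/
def L24 : List (List (Fin 4)) := 
  [[], [1], [2], [3], [1, 2], [1, 3], [2, 1], [2, 3], [3, 1], [1, 2, 1], [1, 2, 3], [1, 3, 1], [2,
  1, 3], [2, 3, 1], [3, 1, 2], [1, 2, 1, 3], [1, 2, 3, 1], [1, 3, 1, 2], [2, 1, 3, 1], [2, 3, 1,
  2], [1, 2, 1, 3, 1], [1, 2, 3, 1, 2], [2, 1, 3, 1, 2], [1, 2, 1, 3, 1, 2]]

theorem W0_ev (h : W0 M) : ∃ a ∈ L8, mv (ev a) e1 = mv M e1 ∧ ∃ b ∈ L24, M = ev a * ev b :=
  forall_orth (P := fun M => sg M = 1 → rt M = 0 → ∃ a ∈ L8, mv (ev a) e1 = mv M e1 ∧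
    ∃ b ∈ L24, M = ev a * ev b) (by decide +kernel) M h.1 h.2.1 h.2.2

/-- `W(D₄)` is generated by four reflections -/
theorem W0_ind {P : M4 → Prop} (h1 : P 1) (hm : ∀ M N, W0 M → W0 N → P M → P N → P (M * N))
    (a : P mT) (b : P s23) (c : P p3) (d : P p2) (M : M4) (h : W0 M) : P M := by
  have k : ∀ w, W0 (ev w) ∧ P (ev w) := fun w => by
    induction w with
    | nil => exact ⟨by decide, h1⟩
    | cons x w ih =>
      have : W0 (![mT, s23, p3, p2] x) ∧ P (![mT, s23, p3, p2] x) := by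
        fin_cases x
        exacts [⟨by decide, a⟩, ⟨by decide, b⟩, ⟨by decide, c⟩, ⟨by decide, d⟩]
      exact ⟨this.1.mul ih.1, hm _ _ this.1 ih.1 this.2 ih.2⟩
  obtain ⟨u, -, -, v, -, rfl⟩ := W0_ev h
  exact hm _ _ (k u).1 (k v).1 (k u).2 (k v).2

theorem W0_of (h : Orth M) (c b : ℕ) (h1 : sg M = (-1) ^ c) (h2 : rt M = (-1) ^ c * b) :
    ∃ N, W0 N ∧ M = u4 ^ c * mO ^ b * N := by
  have o : Orth (u4 ^ c * mO ^ b) := ((W.pow (l := true) (by decide) c).mul (W_mO.pow b)).1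
  have e : M = u4 ^ c * mO ^ b * (tr (u4 ^ c * mO ^ b) * M) := by rw [← mul_assoc, o.mul_tr, one_mul]
  have n := o.tr.mul h
  refine ⟨_, ?_, e⟩
  generalize tr (u4 ^ c * mO ^ b) * M = N at e n
  have u : ∀ c : ℕ, Orth (u4 ^ c) ∧ sg (u4 ^ c) = (-1) ^ c ∧ rt (u4 ^ c) = 0 := fun c => by
    induction c with
    | zero => decide
    | succ c ih =>
      have o : Orth u4 := by decide
      rw [pow_succ, pow_succ, sg_mul ih.1 o, rt_mul ih.1 o, ih.2.1, ih.2.2]
      exact ⟨ih.1.mul o, rfl, by rw [show rt u4 = 0 by decide]; simp⟩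
  have v : ∀ b : ℕ, Orth (mO ^ b) ∧ sg (mO ^ b) = 1 ∧ rt (mO ^ b) = b := fun b => by
    induction b with
    | zero => decide
    | succ b ih =>
      have o : Orth mO := by decide
      rw [pow_succ, sg_mul ih.1 o, rt_mul ih.1 o, ih.2.1, ih.2.2]
      exact ⟨ih.1.mul o, by decide, by rw [show rt mO = 1 by decide]; simp⟩
  rw [e, sg_mul o n, sg_mul (u c).1 (v b).1, (u c).2.1, (v b).2.1] at h1
  rw [e, rt_mul o n, sg_mul (u c).1 (v b).1, rt_mul (u c).1 (v b).1, (u c).2.1, (v b).2.1,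
    (u c).2.2, (v b).2.2] at h2
  have k : ((-1 : ZMod 3) ^ c) * (-1) ^ c = 1 := by rw [← mul_pow]; simp
  exact ⟨n, by linear_combination (-1) ^ c * h1 - (sg N - 1) * k,
    by linear_combination (-1) ^ c * h2 - rt N * k⟩

theorem W_dec (h : Orth M) : ∃ c b : ℕ, ∃ N, W0 N ∧ M = u4 ^ c * mO ^ b * N ∧ (sg M = 1 → c = 0) := by
  have := sg_sq h
  rcases zm3 (sg M) with e | e | e
  · simp [e] at this
  · obtain ⟨N, h1, h2⟩ := W0_of h 0 (rt M).val e (by simp)
    exact ⟨0, _, N, h1, h2, fun _ => rfl⟩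
  · obtain ⟨N, h1, h2⟩ := W0_of h 1 (-rt M).val (by simpa using e) (by simp)
    exact ⟨1, _, N, h1, h2, fun f => absurd (e.symm.trans f) (by decide)⟩

/-- transitivity on singular vectors -/
theorem W0_sing {p : V4} (h : dt p p = 0) (h0 : p ≠ 0) : ∃ M, W0 M ∧ mv M vz = p := by
  obtain ⟨a, -, k, -, e⟩ := (by decide +kernel : ∀ p : V4, dt p p = 0 → p ≠ 0 →
    ∃ a ∈ [1, p3, s23 * p3, mT * s23 * p3], ∃ k ∈ [(1 : ZMod 3), 2],
    mv (dg (if p.1 = 0 then k else p.1) (if p.2.1 = 0 then k else p.2.1)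
      (if p.2.2.1 = 0 then k else p.2.2.1) (if p.2.2.2 = 0 then k else p.2.2.2) * a) vz = p ∧
    W0 (dg (if p.1 = 0 then k else p.1) (if p.2.1 = 0 then k else p.2.1)
      (if p.2.2.1 = 0 then k else p.2.2.1) (if p.2.2.2 = 0 then k else p.2.2.2) * a)) p h h0
  exact ⟨_, e.2, e.1⟩

theorem eqns_lin : True := by
  have := @N24.eq_1
  have := @FR.eq_1
  have := @allO.eq_1
  have := @ev.eq_1
  have := @L8.eq_1
  have := @L24.eq_1
  trivial

end H12.O83
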